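import Cfsg.Agent.H776.Co.Lin
import Mathlib.GroupTheory.PGroup

/-!
# S5227, task `Lin.explicit` , first half (helper119)

A linear group `G` on `F₃⁶` with Sylow 3-subgroup `T` and an element normalising `U1` (`U2`) and moving the centre of
`T` contains the standard Weyl elements.
-/

set_option autoImplicit false
set_option linter.style.longLine false

namespace Cfsg.Agent.H119.Co1

open Cfsg.Agent.H776.Co.Lin Subgroup

instance finiteL : Finite L := Finite.of_injective (fun g : L => (g : V → V)) DFunLike.coe_injective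

theorem three_eq : (3 : ZMod 3) = 0 := rfl

theorem tl_pow_three (a b c : ZMod 3) : tl a b c ^ 3 = 1 := by
  rw [pow_succ, pow_two, tl_mul, tl_mul, ← tl_one]
  have h3 := three_eq
  congr 1
  · linear_combination a * h3
  · linear_combination b * h3
  · linear_combination (c + a * b) * h3

theorem T_pgroup : IsPGroup 3 T := by
  rintro ⟨g, a, b, c, rfl⟩
  exact ⟨1, Subtype.ext (by
    show tl a b c ^ 3 ^ 1 = 1
    rw [pow_one]
    exact tl_pow_three a b c)⟩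

theorem tl_eq_one {a b c : ZMod 3} (h : tl a b c = 1) : a = 0 ∧ b = 0 ∧ c = 0 := by
  have h1 := congrArg (fun g : L => g ![0, 0, 0, 0, 0, 1]) h
  have h2 := congrArg (fun g : L => g ![0, 0, 0, 0, 1, 0]) h
  have e1 := congrFun h1 4
  have e2 := congrFun h1 3
  have e3 := congrFun h2 3
  simp [tf] at e1 e2 e3
  exact ⟨e3, e1, e2⟩

/-- a 3-group normalised by `T` and meeting it trivially -/
theorem inf_bot {G S : Subgroup L} (hG : Syl G) (hS : IsPGroup 3 S)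
    (hn : ∀ t ∈ T, ∀ s ∈ S, t * s * t⁻¹ ∈ S) (hi : ∀ s ∈ S, s ∈ T → s = 1) : ∀ s ∈ S, s ∈ G → s = 1 := by
  intro s hs hsG
  apply hi s hs
  have hle : T ≤ normalizer ((S ⊓ G : Subgroup L) : Set L) := by
    intro t ht
    rw [mem_normalizer_iff]
    intro x
    constructor
    · rintro ⟨h1, h2⟩
      exact ⟨hn t ht x h1, G.mul_mem (G.mul_mem (hG.le ht) h2) (G.inv_mem (hG.le ht))⟩
    · rintro ⟨h1, h2⟩
      have h3 := hn t⁻¹ (T.inv_mem ht) _ h1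
      have h4 := G.mul_mem (G.mul_mem (hG.le (T.inv_mem ht)) h2) (G.inv_mem (hG.le (T.inv_mem ht)))
      have e : t⁻¹ * (t * x * t⁻¹) * t⁻¹⁻¹ = x := by group
      rw [e] at h3 h4
      exact ⟨h3, h4⟩
  have hP : IsPGroup 3 ↥(T ⊔ (S ⊓ G)) := IsPGroup.to_sup_of_normal_right' T_pgroup (hS.to_le inf_le_left) hle
  have hPG : T ⊔ (S ⊓ G) ≤ G := sup_le hG.le inf_le_right
  have h1 : T.relIndex (T ⊔ (S ⊓ G)) ∣ T.relIndex G := ⟨_, (relIndex_mul_relIndex T _ G le_sup_left hPG).symm⟩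
  have h2 : T.relIndex (T ⊔ (S ⊓ G)) ∣ Nat.card ↥(T ⊔ (S ⊓ G)) := by
    rw [relIndex]
    exact index_dvd_card _
  have h33 : Fact (Nat.Prime 3) := ⟨Nat.prime_three⟩
  obtain ⟨n, hn'⟩ := IsPGroup.iff_card.1 hP
  rw [hn'] at h2
  obtain ⟨k, -, hk⟩ := (Nat.dvd_prime_pow Nat.prime_three).1 h2
  have h3 : k = 0 := by
    by_contra hk0
    apply hG.idx
    refine dvd_trans ?_ h1
    rw [hk]
    exact dvd_pow_self 3 hk0
  rw [h3, pow_zero] at hk
  exact (relIndex_eq_one.1 hk) (mem_sup_right ⟨hs, hsG⟩)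

/-! ### The group `U1` -/

/-- the action of `g` on `U1` -/
def Nm1 (g : L) (q p s r : ZMod 3) : Prop := g * tl 0 0 1 = tl 0 q p * g ∧ g * tl 0 1 0 = tl 0 s r * g

theorem Nm1.act {g : L} {q p s r : ZMod 3} (h : Nm1 g q p s r) (b c : ZMod 3) :
    g * tl 0 b c = tl 0 (b * s + c * q) (b * r + c * p) * g := by
  have h1 : ∀ n : ℕ, g * tl 0 0 n = tl 0 (n * q) (n * p) * g := by
    intro n
    induction n with
    | zero => simp [tl_one]
    | succ n ih =>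
      have e : tl 0 0 ((n + 1 : ℕ) : ZMod 3) = tl 0 0 n * tl 0 0 1 := by
        rw [tl_mul]
        congr 1 <;> push_cast <;> ring
      rw [e, ← mul_assoc, ih, mul_assoc, h.1, ← mul_assoc, tl_mul]
      congr 2 <;> push_cast <;> ring
  have h2 : ∀ n : ℕ, g * tl 0 n 0 = tl 0 (n * s) (n * r) * g := by
    intro n
    induction n with
    | zero => simp [tl_one]
    | succ n ih =>
      have e : tl 0 ((n + 1 : ℕ) : ZMod 3) 0 = tl 0 n 0 * tl 0 1 0 := by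
        rw [tl_mul]
        congr 1 <;> push_cast <;> ring
      rw [e, ← mul_assoc, ih, mul_assoc, h.2, ← mul_assoc, tl_mul]
      congr 2 <;> push_cast <;> ring
  have e : tl 0 b c = tl 0 (b.val : ZMod 3) 0 * tl 0 0 (c.val : ZMod 3) := by
    rw [tl_mul, ZMod.natCast_zmod_val, ZMod.natCast_zmod_val]
    congr 1 <;> ring
  rw [e, ← mul_assoc, h2, mul_assoc, h1, ← mul_assoc, tl_mul, ZMod.natCast_zmod_val, ZMod.natCast_zmod_val]
  congr 2 <;> ring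

/-- the nilpotent operators of `U1` -/
def nf (b c : ZMod 3) (v : V) : V := ![2 * c * v 3, c * v 4 + b * v 3, 2 * b * v 4, c * v 5, b * v 5, 0]

theorem nf_eq (b c : ZMod 3) (v : V) : nf b c v = tl 0 (-b) (-c) v - tl 0 b c v := by
  have h3 := three_eq
  funext i
  fin_cases i <;> simp [nf, tf]
  · linear_combination (2 * c * v 3) * h3
  · linear_combination (c * v 4 + b * v 3) * h3
  · linear_combination (2 * b * v 4) * h3
  · linear_combination (c * v 5) * h3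
  · linear_combination (b * v 5) * h3

theorem nf_comm {g : L} {b c b' c' : ZMod 3} (h : g * tl 0 b c = tl 0 b' c' * g) (v : V) :
    g (nf b c v) = nf b' c' (g v) := by
  have h1 : g * tl 0 (-b) (-c) = tl 0 (-b') (-c') * g := by
    have e1 : tl 0 (-b) (-c) = (tl 0 b c)⁻¹ := by rw [tl_inv]; congr 1 <;> ring
    have e2 : tl 0 (-b') (-c') = (tl 0 b' c')⁻¹ := by rw [tl_inv]; congr 1 <;> ring
    rw [e1, e2, eq_inv_mul_iff_mul_eq, ← mul_assoc, ← h, mul_inv_cancel_right]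
  rw [nf_eq, nf_eq, map_sub]
  have e3 := congrArg (fun x : L => x v) h
  have e4 := congrArg (fun x : L => x v) h1
  simp only [LinearEquiv.mul_apply] at e3 e4
  rw [e3, e4]

theorem vec_eq (v : V) : v = v 0 • ![1, 0, 0, 0, 0, 0] + v 1 • ![0, 1, 0, 0, 0, 0] + v 2 • ![0, 0, 1, 0, 0, 0] +
    v 3 • ![0, 0, 0, 1, 0, 0] + v 4 • ![0, 0, 0, 0, 1, 0] + v 5 • ![0, 0, 0, 0, 0, 1] := by
  funext i
  fin_cases i <;> simp

theorem formula1 {m : L} (h : Nm1 m 1 0 0 (-1)) {α β γ : ZMod 3} (he : m ![0, 0, 0, 0, 0, 1] = ![α, β, γ, 0, 0, 1])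
    (v : V) : m v = ![v 2 + α * v 5, -v 1 + β * v 5, v 0 + γ * v 5, -v 4, v 3, v 5] := by
  have a01 : m * tl 0 0 1 = tl 0 1 0 * m := h.1
  have a10 : m * tl 0 1 0 = tl 0 0 (-1) * m := h.2
  have a0m : m * tl 0 0 (-1) = tl 0 (-1) 0 * m := by
    have := h.act 0 (-1)
    simpa using this
  have am0 : m * tl 0 (-1) 0 = tl 0 0 1 * m := by
    have := h.act (-1) 0
    simpa using this
  have e3 : m ![0, 0, 0, 1, 0, 0] = ![0, 0, 0, 0, 1, 0] := by
    have h1 := nf_comm a01 ![0, 0, 0, 0, 0, 1]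
    rw [he] at h1
    have h2 : nf 0 1 ![0, 0, 0, 0, 0, 1] = ![0, 0, 0, 1, 0, 0] := by decide
    have h3 : nf 1 0 ![α, β, γ, 0, 0, 1] = ![0, 0, 0, 0, 1, 0] := by
      funext i
      fin_cases i <;> simp [nf]
    rw [h2, h3] at h1
    exact h1
  have e4 : m ![0, 0, 0, 0, 1, 0] = ![0, 0, 0, -1, 0, 0] := by
    have h1 := nf_comm a10 ![0, 0, 0, 0, 0, 1]
    rw [he] at h1
    have h2 : nf 1 0 ![0, 0, 0, 0, 0, 1] = ![0, 0, 0, 0, 1, 0] := by decide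
    have h3 : nf 0 (-1) ![α, β, γ, 0, 0, 1] = ![0, 0, 0, -1, 0, 0] := by
      funext i
      fin_cases i <;> simp [nf]
    rw [h2, h3] at h1
    exact h1
  have e0 : m ![1, 0, 0, 0, 0, 0] = ![0, 0, 1, 0, 0, 0] := by
    have h1 := nf_comm a0m ![0, 0, 0, 1, 0, 0]
    rw [e3] at h1
    have h2 : nf 0 (-1) ![0, 0, 0, 1, 0, 0] = ![1, 0, 0, 0, 0, 0] := by decide
    have h3 : nf (-1) 0 ![0, 0, 0, 0, 1, 0] = ![0, 0, 1, 0, 0, 0] := by decide
    rw [h2, h3] at h1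
    exact h1
  have e1 : m ![0, 1, 0, 0, 0, 0] = ![0, -1, 0, 0, 0, 0] := by
    have h1 := nf_comm a01 ![0, 0, 0, 0, 1, 0]
    rw [e4] at h1
    have h2 : nf 0 1 ![0, 0, 0, 0, 1, 0] = ![0, 1, 0, 0, 0, 0] := by decide
    have h3 : nf 1 0 ![0, 0, 0, -1, 0, 0] = ![0, -1, 0, 0, 0, 0] := by decide
    rw [h2, h3] at h1
    exact h1
  have e2 : m ![0, 0, 1, 0, 0, 0] = ![1, 0, 0, 0, 0, 0] := by
    have h1 := nf_comm am0 ![0, 0, 0, 0, 1, 0]
    rw [e4] at h1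
    have h2 : nf (-1) 0 ![0, 0, 0, 0, 1, 0] = ![0, 0, 1, 0, 0, 0] := by decide
    have h3 : nf 0 1 ![0, 0, 0, -1, 0, 0] = ![1, 0, 0, 0, 0, 0] := by decide
    rw [h2, h3] at h1
    exact h1
  rw [vec_eq v]
  simp only [map_add, map_smul, e0, e1, e2, e3, e4, he]
  funext i
  fin_cases i <;> simp <;> ring

/-- the last coordinate is preserved by conjugates of `tl a b c` -/
theorem last1 {g : L} {q p s r : ZMod 3} (h : Nm1 g q p s r) : ∃ δ : ZMod 3, ∀ v : V, g v 5 = δ * v 5 := by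
  have key : ∀ (b c : ZMod 3) (w : V), g (nf b c w) 5 = 0 := by
    intro b c w
    rw [nf_comm (h.act b c)]
    rfl
  refine ⟨g ![0, 0, 0, 0, 0, 1] 5, fun v => ?_⟩
  have e3 : g ![0, 0, 0, 1, 0, 0] 5 = 0 := key 0 1 ![0, 0, 0, 0, 0, 1]
  have e4 : g ![0, 0, 0, 0, 1, 0] 5 = 0 := key 1 0 ![0, 0, 0, 0, 0, 1]
  have e0 : g ![1, 0, 0, 0, 0, 0] 5 = 0 := key 0 (-1) ![0, 0, 0, 1, 0, 0]
  have e1 : g ![0, 1, 0, 0, 0, 0] 5 = 0 := key 0 1 ![0, 0, 0, 0, 1, 0]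
  have e2 : g ![0, 0, 1, 0, 0, 0] 5 = 0 := key (-1) 0 ![0, 0, 0, 0, 1, 0]
  conv_lhs => rw [vec_eq v]
  simp only [map_add, map_smul, Pi.add_apply, Pi.smul_apply, e0, e1, e2, e3, e4, smul_eq_mul]
  ring

theorem tl_mem (a b c : ZMod 3) : tl a b c ∈ T := ⟨a, b, c, rfl⟩

theorem tl_congr {a b c a' b' c' : ZMod 3} (ha : a = a') (hb : b = b') (hc : c = c') : tl a b c = tl a' b' c' := by
  rw [ha, hb, hc]

theorem sq_one {x : ZMod 3} (h : x ≠ 0) : x * x = 1 := by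
  revert x
  decide

theorem zpow_z (c : ZMod 3) : tl 0 0 c ∈ zpowers (tl 0 0 1) := by
  have h : ∀ n : ℕ, tl 0 0 1 ^ n = tl 0 0 n := by
    intro n
    induction n with
    | zero => simp [tl_one]
    | succ n ih =>
      rw [pow_succ, ih, tl_mul]
      refine tl_congr (by ring) (by ring) (by push_cast; ring)
  have h1 := h c.val
  rw [ZMod.natCast_zmod_val] at h1
  rw [← h1]
  exact pow_mem (mem_zpowers _) _

theorem tl_mm {a b c a' b' c' x y z u v w : ZMod 3} (h1 : a + a' = x + u) (h2 : b + b' = y + v)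
    (h3 : c + c' + a * b' = z + w + x * v) : tl a b c * tl a' b' c' = tl x y z * tl u v w := by
  rw [tl_mul, tl_mul, h1, h2, h3]

theorem Nm1.act' {g : L} {q p s r : ZMod 3} (h : Nm1 g q p s r) {b c b' c' : ZMod 3} (hb : b * s + c * q = b')
    (hc : b * r + c * p = c') : g * tl 0 b c = tl 0 b' c' * g := by
  rw [h.act, hb, hc]

/-- a transvection with centre `tl 0 1 0`, from an antidiagonal element -/
theorem exists_b_aux {G : Subgroup L} (hTG : T ≤ G) {x : L} (hxG : x ∈ G) {q r' : ZMod 3} (hq : q ≠ 0) (hr' : r' ≠ 0)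
    (hN' : Nm1 x q 0 0 r') : ∃ b ∈ G, Nm1 b 1 1 1 0 ∧ ∀ v : V, b v 5 = v 5 := by
  have hqq := sq_one hq
  have hrr := sq_one hr'
  obtain ⟨δ, hδ⟩ := last1 hN'
  -- the conjugate of `tl 1 0 0`
  have f1 : x⁻¹ * tl 0 0 1 = tl 0 r' 0 * x⁻¹ := by
    have h := hN'.act r' 0
    have e : tl 0 (r' * 0 + 0 * q) (r' * r' + 0 * 0) = tl 0 0 1 := tl_congr rfl (by ring) (by linear_combination hrr)
    rw [e] at h
    rw [inv_mul_eq_iff_eq_mul, ← mul_assoc, h, mul_inv_cancel_right]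
  have f2 : x⁻¹ * tl 0 1 0 = tl 0 0 q * x⁻¹ := by
    have h := hN'.act 0 q
    have e : tl 0 (0 * 0 + q * q) (0 * r' + q * 0) = tl 0 1 0 := tl_congr rfl (by linear_combination hqq) (by ring)
    rw [e] at h
    rw [inv_mul_eq_iff_eq_mul, ← mul_assoc, h, mul_inv_cancel_right]
  have g1 : (x * tl 1 0 0 * x⁻¹) * tl 0 0 1 = tl 0 (r' * q) 1 * (x * tl 1 0 0 * x⁻¹) := by
    have a1 : tl 1 0 0 * tl 0 r' 0 = tl 0 r' r' * tl 1 0 0 := by
      exact tl_mm (by ring) (by ring) (by ring)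
    have a2 : x * tl 0 r' r' = tl 0 (r' * q) 1 * x := by
      exact hN'.act' (by ring) (by linear_combination hrr)
    rw [mul_assoc _ x⁻¹, f1, ← mul_assoc, mul_assoc x, a1, ← mul_assoc, a2]
    simp only [mul_assoc]
  have g2 : (x * tl 1 0 0 * x⁻¹) * tl 0 1 0 = tl 0 1 0 * (x * tl 1 0 0 * x⁻¹) := by
    have a1 : tl 1 0 0 * tl 0 0 q = tl 0 0 q * tl 1 0 0 := by
      exact tl_mm (by ring) (by ring) (by ring)
    have a2 : x * tl 0 0 q = tl 0 1 0 * x := by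
      exact hN'.act' (by linear_combination hqq) (by ring)
    rw [mul_assoc _ x⁻¹, f2, ← mul_assoc, mul_assoc x, a1, ← mul_assoc, a2]
    simp only [mul_assoc]
  have hc : x * tl 1 0 0 * x⁻¹ ∈ G := G.mul_mem (G.mul_mem hxG (hTG (tl_mem _ _ _))) (G.inv_mem hxG)
  have hl : ∀ v : V, (x * tl 1 0 0 * x⁻¹) v 5 = v 5 := by
    intro v
    have e1 : (x * tl 1 0 0 * x⁻¹) v = x (tl 1 0 0 (x⁻¹ v)) := rfl
    have e2 : x (x⁻¹ v) = v := by
      show (x * x⁻¹) v = v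
      rw [mul_inv_cancel]
      rfl
    rw [e1, hδ]
    conv_rhs => rw [← e2, hδ]
    rfl
  have hN2 : Nm1 (x * tl 1 0 0 * x⁻¹) (r' * q) 1 1 0 := ⟨g1, g2⟩
  generalize x * tl 1 0 0 * x⁻¹ = y at *
  have hε : r' * q = 1 ∨ r' * q = -1 := by
    revert hq hr'
    clear * -
    revert r' q
    decide
  rcases hε with h | h
  · rw [h] at hN2
    exact ⟨y, hc, hN2, hl⟩
  · rw [h] at hN2
    refine ⟨y⁻¹, G.inv_mem hc, ⟨?_, ?_⟩, ?_⟩
    · have h2 := hN2.act 1 1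
      have e : tl 0 (1 * 1 + 1 * -1) (1 * 0 + 1 * 1) = tl 0 0 1 := tl_congr rfl (by ring) (by ring)
      rw [e] at h2
      rw [inv_mul_eq_iff_eq_mul, ← mul_assoc, h2, mul_inv_cancel_right]
    · rw [inv_mul_eq_iff_eq_mul, ← mul_assoc, hN2.2, mul_inv_cancel_right]
    · intro v
      have e2 : y (y⁻¹ v) = v := by
        show (y * y⁻¹) v = v
        rw [mul_inv_cancel]
        rfl
      rw [← hl (y⁻¹ v), e2]

/-- a transvection with centre `tl 0 1 0` -/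
theorem exists_b {G : Subgroup L} (hTG : T ≤ G)
    (h1 : ∃ g ∈ G, (∀ u ∈ U1, g * u * g⁻¹ ∈ U1) ∧ g * tl 0 0 1 * g⁻¹ ∉ zpowers (tl 0 0 1)) :
    ∃ b ∈ G, Nm1 b 1 1 1 0 ∧ ∀ v : V, b v 5 = v 5 := by
  obtain ⟨g, hg, hU, hz⟩ := h1
  obtain ⟨q, p, hqp⟩ := hU (tl 0 0 1) ⟨0, 1, rfl⟩
  obtain ⟨s, r, hsr⟩ := hU (tl 0 1 0) ⟨1, 0, rfl⟩
  have hN : Nm1 g q p s r := ⟨mul_inv_eq_iff_eq_mul.1 hqp, mul_inv_eq_iff_eq_mul.1 hsr⟩
  have hq : q ≠ 0 := by
    rintro rfl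
    exact hz (by rw [hqp]; exact zpow_z p)
  have hqq := sq_one hq
  have e1 : (tl (-(p * q)) 0 0 * g * tl (-(s * q)) 0 0) * tl 0 0 1 = tl 0 q 0 * (tl (-(p * q)) 0 0 * g * tl (-(s * q)) 0 0) := by
    have a1 : tl (-(s * q)) 0 0 * tl 0 0 1 = tl 0 0 1 * tl (-(s * q)) 0 0 := by
      exact tl_mm (by ring) (by ring) (by ring)
    have a2 : tl (-(p * q)) 0 0 * tl 0 q p = tl 0 q 0 * tl (-(p * q)) 0 0 := by
      exact tl_mm (by ring) (by ring) (by linear_combination (-p) * hqq)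
    rw [mul_assoc _ (tl (-(s * q)) 0 0), a1, ← mul_assoc, mul_assoc (tl (-(p * q)) 0 0), hN.1, ← mul_assoc, a2]
    simp only [mul_assoc]
  have e2 : (tl (-(p * q)) 0 0 * g * tl (-(s * q)) 0 0) * tl 0 1 0 =
      tl 0 0 (r - s * q * p) * (tl (-(p * q)) 0 0 * g * tl (-(s * q)) 0 0) := by
    have a1 : tl (-(s * q)) 0 0 * tl 0 1 0 = tl 0 1 (-(s * q)) * tl (-(s * q)) 0 0 := by
      exact tl_mm (by ring) (by ring) (by ring)
    have a3 : g * tl 0 1 (-(s * q)) = tl 0 0 (r - s * q * p) * g := by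
      exact hN.act' (by linear_combination (-s) * hqq) (by ring)
    have a2 : tl (-(p * q)) 0 0 * tl 0 0 (r - s * q * p) = tl 0 0 (r - s * q * p) * tl (-(p * q)) 0 0 := by
      exact tl_mm (by ring) (by ring) (by ring)
    rw [mul_assoc _ (tl (-(s * q)) 0 0), a1, ← mul_assoc, mul_assoc (tl (-(p * q)) 0 0), a3, ← mul_assoc, a2]
    simp only [mul_assoc]
  refine exists_b_aux hTG (G.mul_mem (G.mul_mem (hTG (tl_mem _ _ _)) hg) (hTG (tl_mem _ _ _))) hq ?_ ⟨e1, e2⟩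
  intro h0
  rw [h0, tl_one, one_mul] at e2
  exact one_ne_zero (tl_eq_one (mul_left_cancel (e2.trans (mul_one _).symm))).2.1

theorem vec_norm {u : V} (h3 : u 3 = 0) (h4 : u 4 = 0) (h5 : u 5 = 1) : u = ![u 0, u 1, u 2, 0, 0, 1] := by
  funext i
  fin_cases i <;> simp [h3, h4, h5]

theorem tf_norm {w : V} (h5 : w 5 = 1) :
    ∃ α β γ : ZMod 3, tf 0 (-w 4) (-w 3) w = ![α, β, γ, 0, 0, 1] := by
  have e3 : tf 0 (-w 4) (-w 3) w 3 = 0 := by simp [tf, h5]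
  have e4 : tf 0 (-w 4) (-w 3) w 4 = 0 := by simp [tf, h5]
  have e5 : tf 0 (-w 4) (-w 3) w 5 = 1 := by simp [tf, h5]
  exact ⟨_, _, _, vec_norm e3 e4 e5⟩

theorem exists_m_aux {G : Subgroup L} (hTG : T ≤ G) {m0 : L} (hG0 : m0 ∈ G) (e1 : m0 * tl 0 0 1 = tl 0 1 0 * m0)
    (e2 : m0 * tl 0 1 0 = tl 0 0 (-1) * m0) (hl0 : ∀ v : V, m0 v 5 = v 5) :
    ∃ m ∈ G, ∃ α β γ : ZMod 3, ∀ v, m v = ![v 2 + α * v 5, -v 1 + β * v 5, v 0 + γ * v 5, -v 4, v 3, v 5] := by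
  obtain ⟨w, hw⟩ : ∃ w, w = m0 ![0, 0, 0, 0, 0, 1] := ⟨_, rfl⟩
  have hw5 : w 5 = 1 := by rw [hw, hl0]; rfl
  have hNm : Nm1 (tl 0 (-w 4) (-w 3) * m0) 1 0 0 (-1) := by
    constructor
    · have a : tl 0 (-w 4) (-w 3) * tl 0 1 0 = tl 0 1 0 * tl 0 (-w 4) (-w 3) := by
        exact tl_mm (by ring) (by ring) (by ring)
      rw [mul_assoc, e1, ← mul_assoc, a, mul_assoc]
    · have a : tl 0 (-w 4) (-w 3) * tl 0 0 (-1) = tl 0 0 (-1) * tl 0 (-w 4) (-w 3) := by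
        exact tl_mm (by ring) (by ring) (by ring)
      rw [mul_assoc, e2, ← mul_assoc, a, mul_assoc]
  obtain ⟨α, β, γ, he⟩ := tf_norm hw5
  refine ⟨_, G.mul_mem (hTG (tl_mem _ _ _)) hG0, α, β, γ, formula1 hNm ?_⟩
  rw [LinearEquiv.mul_apply, ← hw, tl_apply, he]

/-- the element of order 4 -/
theorem exists_m {G : Subgroup L} (hTG : T ≤ G) {b : L} (hb : b ∈ G) (hN : Nm1 b 1 1 1 0) (hl : ∀ v : V, b v 5 = v 5) :
    ∃ m ∈ G, ∃ α β γ : ZMod 3, ∀ v, m v = ![v 2 + α * v 5, -v 1 + β * v 5, v 0 + γ * v 5, -v 4, v 3, v 5] := by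
  have e1 : (tl (-1) 0 0 * b * tl (-1) 0 0) * tl 0 0 1 = tl 0 1 0 * (tl (-1) 0 0 * b * tl (-1) 0 0) := by
    have a1 : tl (-1) 0 0 * tl 0 0 1 = tl 0 0 1 * tl (-1) 0 0 := by
      exact tl_mm (by ring) (by ring) (by ring)
    have a2 : tl (-1) 0 0 * tl 0 1 1 = tl 0 1 0 * tl (-1) 0 0 := by
      exact tl_mm (by ring) (by ring) (by ring)
    rw [mul_assoc _ (tl (-1) 0 0), a1, ← mul_assoc, mul_assoc (tl (-1) 0 0), hN.1, ← mul_assoc, a2]
    simp only [mul_assoc]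
  have e2 : (tl (-1) 0 0 * b * tl (-1) 0 0) * tl 0 1 0 = tl 0 0 (-1) * (tl (-1) 0 0 * b * tl (-1) 0 0) := by
    have a1 : tl (-1) 0 0 * tl 0 1 0 = tl 0 1 (-1) * tl (-1) 0 0 := by
      exact tl_mm (by ring) (by ring) (by ring)
    have a3 : b * tl 0 1 (-1) = tl 0 0 (-1) * b := by
      exact hN.act' (by ring) (by ring)
    have a2 : tl (-1) 0 0 * tl 0 0 (-1) = tl 0 0 (-1) * tl (-1) 0 0 := by
      exact tl_mm (by ring) (by ring) (by ring)
    rw [mul_assoc _ (tl (-1) 0 0), a1, ← mul_assoc, mul_assoc (tl (-1) 0 0), a3, ← mul_assoc, a2]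
    simp only [mul_assoc]
  have hG0 : tl (-1) 0 0 * b * tl (-1) 0 0 ∈ G := G.mul_mem (G.mul_mem (hTG (tl_mem _ _ _)) hb) (hTG (tl_mem _ _ _))
  have hl0 : ∀ v : V, (tl (-1) 0 0 * b * tl (-1) 0 0) v 5 = v 5 := by
    intro v
    show b (tl (-1) 0 0 v) 5 = v 5
    rw [hl]
    rfl
  exact exists_m_aux hTG hG0 e1 e2 hl0

/-- the 3-group `1 + rad²` -/
def S1 : Subgroup L where
  carrier := {g | ∃ p q r : ZMod 3, ∀ v, g v = ![v 0 + p * v 5, v 1 + q * v 5, v 2 + r * v 5, v 3, v 4, v 5]}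
  mul_mem' := by
    rintro g h ⟨p, q, r, hg⟩ ⟨p', q', r', hh⟩
    refine ⟨p + p', q + q', r + r', fun v => ?_⟩
    rw [LinearEquiv.mul_apply, hh, hg]
    funext i
    fin_cases i <;> simp <;> ring
  one_mem' := ⟨0, 0, 0, fun v => by
    funext i
    fin_cases i <;> simp⟩
  inv_mem' := by
    rintro g ⟨p, q, r, hg⟩
    refine ⟨-p, -q, -r, fun v => ?_⟩
    have h1 : g ![v 0 + -p * v 5, v 1 + -q * v 5, v 2 + -r * v 5, v 3, v 4, v 5] = v := by
      rw [hg]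
      funext i
      fin_cases i <;> simp
    have h2 : g⁻¹ v = g⁻¹ (g ![v 0 + -p * v 5, v 1 + -q * v 5, v 2 + -r * v 5, v 3, v 4, v 5]) := by rw [h1]
    rw [h2]
    show (g⁻¹ * g) _ = _
    rw [inv_mul_cancel]
    rfl

theorem S1_pgroup : IsPGroup 3 S1 := by
  rintro ⟨g, p, q, r, hg⟩
  refine ⟨1, Subtype.ext (LinearEquiv.ext fun v => ?_)⟩
  show (g ^ 3 ^ 1) v = v
  have h3 := three_eq
  rw [pow_one, pow_succ, pow_two, LinearEquiv.mul_apply, LinearEquiv.mul_apply, hg, hg, hg]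
  funext i
  fin_cases i <;> simp
  · linear_combination (p * v 5) * h3
  · linear_combination (q * v 5) * h3
  · linear_combination (r * v 5) * h3

theorem S1_norm : ∀ t ∈ T, ∀ s ∈ S1, t * s * t⁻¹ ∈ S1 := by
  rintro _ ⟨a, b, c, rfl⟩ s ⟨p, q, r, hs⟩
  refine ⟨p + 2 * a * q + a ^ 2 * r, q + a * r, r, fun v => ?_⟩
  rw [tl_inv, LinearEquiv.mul_apply, LinearEquiv.mul_apply, hs, tl_apply, tl_apply]
  funext i
  fin_cases i <;> simp [tf] <;> ring

theorem S1_inf : ∀ s ∈ S1, s ∈ T → s = 1 := by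
  rintro s ⟨p, q, r, hs⟩ ⟨a, b, c, rfl⟩
  have h1 := hs ![0, 0, 0, 0, 0, 1]
  have h2 := hs ![0, 0, 0, 0, 1, 0]
  have e1 := congrFun h1 4
  have e2 := congrFun h1 3
  have e3 := congrFun h2 3
  simp [tf] at e1 e2 e3
  rw [e1, e2, e3, tl_one]

theorem part1 {G : Subgroup L} (hG : Syl G)
    (h1 : ∃ g ∈ G, (∀ u ∈ U1, g * u * g⁻¹ ∈ U1) ∧ g * tl 0 0 1 * g⁻¹ ∉ zpowers (tl 0 0 1)) :
    ∃ i : ZMod 3, ∃ m ∈ G, ∀ v, m v = ![v 2 + i * v 5, -v 1, v 0 - i * v 5, -v 4, v 3, v 5] := by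
  obtain ⟨b, hb, hN, hl⟩ := exists_b hG.le h1
  obtain ⟨m, hm, α, β, γ, hmv⟩ := exists_m hG.le hb hN hl
  have h3 := three_eq
  -- `m ^ 4`
  have c1 : α + γ = 0 := by
    have hm4 : ∀ v, (m * m * (m * m)) v = ![v 0 + 2 * (α + γ) * v 5, v 1 + 0 * v 5, v 2 + 2 * (α + γ) * v 5, v 3, v 4, v 5] := by
      intro v
      rw [LinearEquiv.mul_apply, LinearEquiv.mul_apply, LinearEquiv.mul_apply, hmv, hmv, hmv, hmv]
      funext i
      fin_cases i <;> simp <;> ring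
    have h4 := inf_bot hG S1_pgroup S1_norm S1_inf (m * m * (m * m)) ⟨_, _, _, hm4⟩
      (G.mul_mem (G.mul_mem hm hm) (G.mul_mem hm hm))
    have h5 := congrFun (hm4 ![0, 0, 0, 0, 0, 1]) 0
    rw [h4] at h5
    simp at h5
    rcases h5 with h5 | h5
    · exact absurd h5 (by decide)
    · exact h5
  have c2 : β = 0 := by
    have hx : ∀ v, (tl (-1) 0 0 * m) v = ![v 2 + α * v 5 + 2 * v 1 - 2 * β * v 5 + v 0 + γ * v 5, -v 1 + β * v 5 - v 0 - γ * v 5,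
        v 0 + γ * v 5, -v 4 - v 3, v 3, v 5] := by
      intro v
      rw [LinearEquiv.mul_apply, hmv, tl_apply]
      funext i
      fin_cases i <;> simp [tf] <;> ring
    have hX : tl (-1) 0 0 * m ∈ G := G.mul_mem (hG.le (tl_mem _ _ _)) hm
    generalize tl (-1) 0 0 * m = X at hx hX
    have hm4 : ∀ v, (X * (X * X)) v =
        ![v 0 + (β - (α + γ)) * v 5, v 1 + (β - (α + γ)) * v 5, v 2 + (β - (α + γ)) * v 5, v 3, v 4, v 5] := by
      intro v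
      rw [LinearEquiv.mul_apply, LinearEquiv.mul_apply, hx, hx, hx]
      funext i
      fin_cases i <;> simp
      · linear_combination (α * v 5 - β * v 5 + γ * v 5) * h3
      · linear_combination 0
      · linear_combination (α * v 5 - β * v 5 + γ * v 5) * h3
      · linear_combination 0
      · linear_combination 0
    have h4 := inf_bot hG S1_pgroup S1_norm S1_inf (X * (X * X)) ⟨_, _, _, hm4⟩
      (G.mul_mem hX (G.mul_mem hX hX))
    have h5 := congrFun (hm4 ![0, 0, 0, 0, 0, 1]) 0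
    rw [h4] at h5
    simp at h5
    linear_combination c1 - h5
  refine ⟨α, m, hm, fun v => ?_⟩
  rw [hmv, c2]
  have h5 : γ = -α := by linear_combination c1
  rw [h5]
  funext i
  fin_cases i <;> simp
  ring

end Cfsg.Agent.H119.Co1
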