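import Cfsg.Agent.H119.Co1.ExplA

/-!
# S5227, task `Lin.explicit`, second half (helper119)
-/

set_option autoImplicit false
set_option linter.style.longLine false

namespace Cfsg.Agent.H119.Co1

open Cfsg.Agent.H776.Co.Lin Subgroup

/-- the action of `g` on `U2` -/
def Nm2 (g : L) (q p s r : ZMod 3) : Prop := g * tl 0 0 1 = tl q 0 p * g ∧ g * tl 1 0 0 = tl s 0 r * g

theorem Nm2.act {g : L} {q p s r : ZMod 3} (h : Nm2 g q p s r) (b c : ZMod 3) :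
    g * tl b 0 c = tl (b * s + c * q) 0 (b * r + c * p) * g := by
  have h1 : ∀ n : ℕ, g * tl 0 0 n = tl (n * q) 0 (n * p) * g := by
    intro n
    induction n with
    | zero => simp [tl_one]
    | succ n ih =>
      have e : tl 0 0 ((n + 1 : ℕ) : ZMod 3) = tl 0 0 n * tl 0 0 1 := by
        rw [tl_mul]
        congr 1 <;> push_cast <;> ring
      rw [e, ← mul_assoc, ih, mul_assoc, h.1, ← mul_assoc, tl_mul]
      congr 2 <;> push_cast <;> ring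
  have h2 : ∀ n : ℕ, g * tl n 0 0 = tl (n * s) 0 (n * r) * g := by
    intro n
    induction n with
    | zero => simp [tl_one]
    | succ n ih =>
      have e : tl ((n + 1 : ℕ) : ZMod 3) 0 0 = tl n 0 0 * tl 1 0 0 := by
        rw [tl_mul]
        congr 1 <;> push_cast <;> ring
      rw [e, ← mul_assoc, ih, mul_assoc, h.2, ← mul_assoc, tl_mul]
      congr 2 <;> push_cast <;> ring
  have e : tl b 0 c = tl (b.val : ZMod 3) 0 0 * tl 0 0 (c.val : ZMod 3) := by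
    rw [tl_mul, ZMod.natCast_zmod_val, ZMod.natCast_zmod_val]
    congr 1 <;> ring
  rw [e, ← mul_assoc, h2, mul_assoc, h1, ← mul_assoc, tl_mul, ZMod.natCast_zmod_val, ZMod.natCast_zmod_val]
  congr 2 <;> ring

theorem Nm2.act' {g : L} {q p s r : ZMod 3} (h : Nm2 g q p s r) {b c b' c' : ZMod 3} (hb : b * s + c * q = b')
    (hc : b * r + c * p = c') : g * tl b 0 c = tl b' 0 c' * g := by
  rw [h.act, hb, hc]

/-- the nilpotent operators of `U2` -/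
def mf (a c : ZMod 3) (v : V) : V := ![2 * a * v 1 + 2 * c * v 3, a * v 2 + c * v 4, 0, a * v 4 + c * v 5, 0, 0]

theorem mf_eq (a c : ZMod 3) (v : V) : mf a c v = tl (-a) 0 (-c) v - tl a 0 c v := by
  have h3 := three_eq
  funext i
  fin_cases i <;> simp [mf, tf]
  · linear_combination (2 * a * v 1 + 2 * c * v 3) * h3
  · linear_combination (a * v 2 + c * v 4) * h3
  · linear_combination (a * v 4 + c * v 5) * h3

theorem mf_comm {g : L} {b c b' c' : ZMod 3} (h : g * tl b 0 c = tl b' 0 c' * g) (v : V) :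
    g (mf b c v) = mf b' c' (g v) := by
  have h1 : g * tl (-b) 0 (-c) = tl (-b') 0 (-c') * g := by
    have e1 : tl (-b) 0 (-c) = (tl b 0 c)⁻¹ := by rw [tl_inv]; congr 1 <;> ring
    have e2 : tl (-b') 0 (-c') = (tl b' 0 c')⁻¹ := by rw [tl_inv]; congr 1 <;> ring
    rw [e1, e2, eq_inv_mul_iff_mul_eq, ← mul_assoc, ← h, mul_inv_cancel_right]
  rw [mf_eq, mf_eq, map_sub]
  have e3 := congrArg (fun x : L => x v) h
  have e4 := congrArg (fun x : L => x v) h1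
  simp only [LinearEquiv.mul_apply] at e3 e4
  rw [e3, e4]

theorem formula2 {m : L} (h : Nm2 m (-1) 0 0 1) {α β γ : ZMod 3} (h0 : m ![1, 0, 0, 0, 0, 0] 0 = 1)
    (h1 : m ![0, 1, 0, 0, 0, 0] 0 = 0) (h2 : m ![0, 0, 1, 0, 0, 0] 0 = α) (h3 : m ![0, 0, 0, 1, 0, 0] 0 = 0)
    (h4 : m ![0, 0, 0, 0, 1, 0] 0 = β) (h5 : m ![0, 0, 0, 0, 0, 1] 0 = γ)
    (v : V) : m v = ![v 0 + α * v 2 + β * v 4 + γ * v 5, -v 3, v 5, v 1, -v 4, v 2] := by
  have r0 : ∀ v : V, m v 0 = v 0 + α * v 2 + β * v 4 + γ * v 5 := by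
    intro v
    conv_lhs => rw [vec_eq v]
    simp only [map_add, map_smul, Pi.add_apply, Pi.smul_apply, h0, h1, h2, h3, h4, h5, smul_eq_mul]
    ring
  have a10 : m * tl 1 0 0 = tl 0 0 1 * m := h.2
  have a01 : m * tl 0 0 1 = tl (-1) 0 0 * m := h.1
  have k10 : ∀ v, m (mf 1 0 v) = mf 0 1 (m v) := mf_comm a10
  have k01 : ∀ v, m (mf 0 1 v) = mf (-1) 0 (m v) := mf_comm a01
  have t3 := three_eq
  have r3 : ∀ v : V, m v 3 = v 1 := by
    intro v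
    have e := congrFun (k10 v) 0
    rw [r0] at e
    simp [mf] at e
    rcases e with e | e
    · exact e.symm
    · exact absurd e (by decide)
  have r1 : ∀ v : V, m v 1 = -v 3 := by
    intro v
    have e := congrFun (k01 v) 0
    rw [r0] at e
    simp [mf] at e
    linear_combination (-1) * e + (v 3 + m v 1) * t3
  have r4 : ∀ v : V, m v 4 = -v 4 := by
    intro v
    have e := congrFun (k10 v) 1
    rw [r1] at e
    simp [mf] at e
    exact e.symm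
  have r2 : ∀ v : V, m v 2 = v 5 := by
    intro v
    have e := congrFun (k01 v) 1
    rw [r1] at e
    simp [mf] at e
    exact e.symm
  have r5 : ∀ v : V, m v 5 = v 2 := by
    intro v
    have e := congrFun (k10 v) 3
    rw [r3] at e
    simp [mf] at e
    exact e.symm
  funext i
  fin_cases i
  · exact r0 v
  · exact r1 v
  · exact r2 v
  · exact r3 v
  · exact r4 v
  · exact r5 v

/-- `e0` is an eigenvector -/
theorem first2 {g : L} {q p s r : ZMod 3} (h : Nm2 g q p s r) :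
    ∃ δ : ZMod 3, δ ≠ 0 ∧ g ![1, 0, 0, 0, 0, 0] = δ • ![1, 0, 0, 0, 0, 0] := by
  have hk : g ![1, 0, 0, 0, 0, 0] = mf (-s) (-r) (mf s r (g ![0, 0, 1, 0, 0, 0])) := by
    have e1 : (![1, 0, 0, 0, 0, 0] : V) = mf (-1) 0 (mf 1 0 ![0, 0, 1, 0, 0, 0]) := by decide
    rw [e1, mf_comm (h.act' (b := -1) (c := 0) (b' := -s) (c' := -r) (by ring) (by ring)),
      mf_comm (h.act' (b := 1) (c := 0) (b' := s) (c' := r) (by ring) (by ring))]
  have h0 : ∀ i : Fin 6, i ≠ 0 → g ![1, 0, 0, 0, 0, 0] i = 0 := by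
    intro i hi
    rw [hk]
    fin_cases i
    · exact absurd rfl hi
    · simp [mf]
    · simp [mf]
    · simp [mf]
    · simp [mf]
    · simp [mf]
  have h1 : g ![1, 0, 0, 0, 0, 0] = g ![1, 0, 0, 0, 0, 0] 0 • ![1, 0, 0, 0, 0, 0] := by
    have h01 := h0 1 (by decide)
    have h02 := h0 2 (by decide)
    have h03 := h0 3 (by decide)
    have h04 := h0 4 (by decide)
    have h05 := h0 5 (by decide)
    generalize g ![1, 0, 0, 0, 0, 0] = w at *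
    funext i
    fin_cases i <;> simp [h01, h02, h03, h04, h05]
  refine ⟨_, ?_, h1⟩
  intro h2
  rw [h2, zero_smul] at h1
  have h3 : (![1, 0, 0, 0, 0, 0] : V) = 0 := g.injective (h1.trans (map_zero g).symm)
  exact absurd (congrFun h3 0) (by decide)

/-- a transvection with centre `tl 1 0 0`, from an antidiagonal element -/
theorem exists_b2_aux {G : Subgroup L} (hTG : T ≤ G) {x : L} (hxG : x ∈ G) {q r' : ZMod 3} (hq : q ≠ 0) (hr' : r' ≠ 0)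
    (hN' : Nm2 x q 0 0 r') : ∃ b ∈ G, Nm2 b (-1) 1 1 0 ∧ b ![1, 0, 0, 0, 0, 0] = ![1, 0, 0, 0, 0, 0] := by
  have hqq := sq_one hq
  have hrr := sq_one hr'
  obtain ⟨δ, hδ0, hδ⟩ := first2 hN'
  have f1 : x⁻¹ * tl 0 0 1 = tl r' 0 0 * x⁻¹ := by
    have h := hN'.act' (b := r') (c := 0) (b' := 0) (c' := 1) (by ring) (by linear_combination hrr)
    rw [inv_mul_eq_iff_eq_mul, ← mul_assoc, h, mul_inv_cancel_right]
  have f2 : x⁻¹ * tl 1 0 0 = tl 0 0 q * x⁻¹ := by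
    have h := hN'.act' (b := 0) (c := q) (b' := 1) (c' := 0) (by linear_combination hqq) (by ring)
    rw [inv_mul_eq_iff_eq_mul, ← mul_assoc, h, mul_inv_cancel_right]
  have g1 : (x * tl 0 1 0 * x⁻¹) * tl 0 0 1 = tl (-(r' * q)) 0 1 * (x * tl 0 1 0 * x⁻¹) := by
    have a1 : tl 0 1 0 * tl r' 0 0 = tl r' 0 (-r') * tl 0 1 0 := tl_mm (by ring) (by ring) (by ring)
    have a2 : x * tl r' 0 (-r') = tl (-(r' * q)) 0 1 * x := hN'.act' (by ring) (by linear_combination hrr)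
    rw [mul_assoc _ x⁻¹, f1, ← mul_assoc, mul_assoc x, a1, ← mul_assoc, a2]
    simp only [mul_assoc]
  have g2 : (x * tl 0 1 0 * x⁻¹) * tl 1 0 0 = tl 1 0 0 * (x * tl 0 1 0 * x⁻¹) := by
    have a1 : tl 0 1 0 * tl 0 0 q = tl 0 0 q * tl 0 1 0 := tl_mm (by ring) (by ring) (by ring)
    have a2 : x * tl 0 0 q = tl 1 0 0 * x := hN'.act' (by linear_combination hqq) (by ring)
    rw [mul_assoc _ x⁻¹, f2, ← mul_assoc, mul_assoc x, a1, ← mul_assoc, a2]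
    simp only [mul_assoc]
  have hc : x * tl 0 1 0 * x⁻¹ ∈ G := G.mul_mem (G.mul_mem hxG (hTG (tl_mem _ _ _))) (G.inv_mem hxG)
  have hl : (x * tl 0 1 0 * x⁻¹) ![1, 0, 0, 0, 0, 0] = ![1, 0, 0, 0, 0, 0] := by
    have e1 : x⁻¹ ![1, 0, 0, 0, 0, 0] = δ • ![1, 0, 0, 0, 0, 0] := by
      have e2 : x (δ • ![1, 0, 0, 0, 0, 0]) = ![1, 0, 0, 0, 0, 0] := by
        rw [map_smul, hδ, smul_smul, sq_one hδ0, one_smul]
      have e3 : x⁻¹ (x (δ • ![1, 0, 0, 0, 0, 0])) = δ • ![1, 0, 0, 0, 0, 0] := by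
        show (x⁻¹ * x) _ = _
        rw [inv_mul_cancel]
        rfl
      rw [← e3, e2]
    have e4 : tl 0 1 0 ![1, 0, 0, 0, 0, 0] = ![1, 0, 0, 0, 0, 0] := by
      rw [tl_apply]
      decide
    rw [LinearEquiv.mul_apply, LinearEquiv.mul_apply, e1, map_smul, e4, map_smul, hδ, smul_smul, sq_one hδ0, one_smul]
  have hN2 : Nm2 (x * tl 0 1 0 * x⁻¹) (-(r' * q)) 1 1 0 := ⟨g1, g2⟩
  generalize x * tl 0 1 0 * x⁻¹ = y at *
  have hε : -(r' * q) = -1 ∨ -(r' * q) = 1 := by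
    revert hq hr'
    clear * -
    revert r' q
    decide
  rcases hε with h | h
  · rw [h] at hN2
    exact ⟨y, hc, hN2, hl⟩
  · rw [h] at hN2
    refine ⟨y⁻¹, G.inv_mem hc, ⟨?_, ?_⟩, ?_⟩
    · have h2 := hN2.act' (b := -1) (c := 1) (b' := 0) (c' := 1) (by ring) (by ring)
      rw [inv_mul_eq_iff_eq_mul, ← mul_assoc, h2, mul_inv_cancel_right]
    · rw [inv_mul_eq_iff_eq_mul, ← mul_assoc, hN2.2, mul_inv_cancel_right]
    · have e2 : y⁻¹ (y ![1, 0, 0, 0, 0, 0]) = ![1, 0, 0, 0, 0, 0] := by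
        show (y⁻¹ * y) _ = _
        rw [inv_mul_cancel]
        rfl
      rwa [hl] at e2

/-- a transvection with centre `tl 1 0 0` -/
theorem exists_b2 {G : Subgroup L} (hTG : T ≤ G)
    (h1 : ∃ g ∈ G, (∀ u ∈ U2, g * u * g⁻¹ ∈ U2) ∧ g * tl 0 0 1 * g⁻¹ ∉ zpowers (tl 0 0 1)) :
    ∃ b ∈ G, Nm2 b (-1) 1 1 0 ∧ b ![1, 0, 0, 0, 0, 0] = ![1, 0, 0, 0, 0, 0] := by
  obtain ⟨g, hg, hU, hz⟩ := h1
  obtain ⟨q, p, hqp⟩ := hU (tl 0 0 1) ⟨0, 1, rfl⟩
  obtain ⟨s, r, hsr⟩ := hU (tl 1 0 0) ⟨1, 0, rfl⟩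
  have hN : Nm2 g q p s r := ⟨mul_inv_eq_iff_eq_mul.1 hqp, mul_inv_eq_iff_eq_mul.1 hsr⟩
  have hq : q ≠ 0 := by
    rintro rfl
    exact hz (by rw [hqp]; exact zpow_z p)
  have hqq := sq_one hq
  have e1 : (tl 0 (p * q) 0 * g * tl 0 (s * q) 0) * tl 0 0 1 = tl q 0 0 * (tl 0 (p * q) 0 * g * tl 0 (s * q) 0) := by
    have a1 : tl 0 (s * q) 0 * tl 0 0 1 = tl 0 0 1 * tl 0 (s * q) 0 := tl_mm (by ring) (by ring) (by ring)
    have a2 : tl 0 (p * q) 0 * tl q 0 p = tl q 0 0 * tl 0 (p * q) 0 :=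
      tl_mm (by ring) (by ring) (by linear_combination (-p) * hqq)
    rw [mul_assoc _ (tl 0 (s * q) 0), a1, ← mul_assoc, mul_assoc (tl 0 (p * q) 0), hN.1, ← mul_assoc, a2]
    simp only [mul_assoc]
  have e2 : (tl 0 (p * q) 0 * g * tl 0 (s * q) 0) * tl 1 0 0 =
      tl 0 0 (r - s * q * p) * (tl 0 (p * q) 0 * g * tl 0 (s * q) 0) := by
    have a1 : tl 0 (s * q) 0 * tl 1 0 0 = tl 1 0 (-(s * q)) * tl 0 (s * q) 0 := tl_mm (by ring) (by ring) (by ring)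
    have a3 : g * tl 1 0 (-(s * q)) = tl 0 0 (r - s * q * p) * g :=
      hN.act' (by linear_combination (-s) * hqq) (by ring)
    have a2 : tl 0 (p * q) 0 * tl 0 0 (r - s * q * p) = tl 0 0 (r - s * q * p) * tl 0 (p * q) 0 :=
      tl_mm (by ring) (by ring) (by ring)
    rw [mul_assoc _ (tl 0 (s * q) 0), a1, ← mul_assoc, mul_assoc (tl 0 (p * q) 0), a3, ← mul_assoc, a2]
    simp only [mul_assoc]
  refine exists_b2_aux hTG (G.mul_mem (G.mul_mem (hTG (tl_mem _ _ _)) hg) (hTG (tl_mem _ _ _))) hq ?_ ⟨e1, e2⟩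
  intro h0
  rw [h0, tl_one, one_mul] at e2
  exact one_ne_zero (tl_eq_one (mul_left_cancel (e2.trans (mul_one _).symm))).1

theorem exists_m2_aux {G : Subgroup L} (hTG : T ≤ G) {m0 : L} (hG0 : m0 ∈ G) (e1 : m0 * tl 0 0 1 = tl (-1) 0 0 * m0)
    (e2 : m0 * tl 1 0 0 = tl 0 0 1 * m0) (hl0 : m0 ![1, 0, 0, 0, 0, 0] = ![1, 0, 0, 0, 0, 0]) :
    ∃ m ∈ G, ∃ α β γ : ZMod 3, ∀ v, m v = ![v 0 + α * v 2 + β * v 4 + γ * v 5, -v 3, v 5, v 1, -v 4, v 2] := by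
  obtain ⟨a, ha⟩ : ∃ a, a = m0 ![0, 1, 0, 0, 0, 0] 0 := ⟨_, rfl⟩
  obtain ⟨c, hc⟩ : ∃ c, c = m0 ![0, 0, 0, 1, 0, 0] 0 := ⟨_, rfl⟩
  have t3 := three_eq
  have hNm : Nm2 (m0 * tl a 0 c) (-1) 0 0 1 := by
    constructor
    · have a' : tl a 0 c * tl 0 0 1 = tl 0 0 1 * tl a 0 c := tl_mm (by ring) (by ring) (by ring)
      rw [mul_assoc, a', ← mul_assoc, e1, mul_assoc]
    · have a' : tl a 0 c * tl 1 0 0 = tl 1 0 0 * tl a 0 c := tl_mm (by ring) (by ring) (by ring)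
      rw [mul_assoc, a', ← mul_assoc, e2, mul_assoc]
  refine ⟨_, G.mul_mem hG0 (hTG (tl_mem a 0 c)), _, _, _, formula2 hNm ?_ ?_ rfl ?_ rfl rfl⟩
  · have h1 : tl a 0 c ![1, 0, 0, 0, 0, 0] = ![1, 0, 0, 0, 0, 0] := by
      rw [tl_apply]
      funext i
      fin_cases i <;> simp [tf]
    rw [LinearEquiv.mul_apply, h1, hl0]
    rfl
  · have h1 : tl a 0 c ![0, 1, 0, 0, 0, 0] = ![0, 1, 0, 0, 0, 0] + (2 * a) • ![1, 0, 0, 0, 0, 0] := by
      rw [tl_apply]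
      funext i
      fin_cases i <;> simp [tf]
    rw [LinearEquiv.mul_apply, h1, map_add, map_smul, hl0, Pi.add_apply, Pi.smul_apply, ← ha]
    simp only [Matrix.cons_val_zero, smul_eq_mul]
    linear_combination a * t3
  · have h1 : tl a 0 c ![0, 0, 0, 1, 0, 0] = ![0, 0, 0, 1, 0, 0] + (2 * c) • ![1, 0, 0, 0, 0, 0] := by
      rw [tl_apply]
      funext i
      fin_cases i <;> simp [tf]
    rw [LinearEquiv.mul_apply, h1, map_add, map_smul, hl0, Pi.add_apply, Pi.smul_apply, ← hc]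
    simp only [Matrix.cons_val_zero, smul_eq_mul]
    linear_combination c * t3

/-- the element of order 4 -/
theorem exists_m2 {G : Subgroup L} (hTG : T ≤ G) {b : L} (hb : b ∈ G) (hN : Nm2 b (-1) 1 1 0)
    (hl : b ![1, 0, 0, 0, 0, 0] = ![1, 0, 0, 0, 0, 0]) :
    ∃ m ∈ G, ∃ α β γ : ZMod 3, ∀ v, m v = ![v 0 + α * v 2 + β * v 4 + γ * v 5, -v 3, v 5, v 1, -v 4, v 2] := by
  have e1 : (tl 0 (-1) 0 * b * tl 0 (-1) 0) * tl 0 0 1 = tl (-1) 0 0 * (tl 0 (-1) 0 * b * tl 0 (-1) 0) := by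
    have a1 : tl 0 (-1) 0 * tl 0 0 1 = tl 0 0 1 * tl 0 (-1) 0 := tl_mm (by ring) (by ring) (by ring)
    have a2 : tl 0 (-1) 0 * tl (-1) 0 1 = tl (-1) 0 0 * tl 0 (-1) 0 := tl_mm (by ring) (by ring) (by ring)
    rw [mul_assoc _ (tl 0 (-1) 0), a1, ← mul_assoc, mul_assoc (tl 0 (-1) 0), hN.1, ← mul_assoc, a2]
    simp only [mul_assoc]
  have e2 : (tl 0 (-1) 0 * b * tl 0 (-1) 0) * tl 1 0 0 = tl 0 0 1 * (tl 0 (-1) 0 * b * tl 0 (-1) 0) := by
    have a1 : tl 0 (-1) 0 * tl 1 0 0 = tl 1 0 1 * tl 0 (-1) 0 := tl_mm (by ring) (by ring) (by ring)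
    have a3 : b * tl 1 0 1 = tl 0 0 1 * b := hN.act' (by ring) (by ring)
    have a2 : tl 0 (-1) 0 * tl 0 0 1 = tl 0 0 1 * tl 0 (-1) 0 := tl_mm (by ring) (by ring) (by ring)
    rw [mul_assoc _ (tl 0 (-1) 0), a1, ← mul_assoc, mul_assoc (tl 0 (-1) 0), a3, ← mul_assoc, a2]
    simp only [mul_assoc]
  have hG0 : tl 0 (-1) 0 * b * tl 0 (-1) 0 ∈ G := G.mul_mem (G.mul_mem (hTG (tl_mem _ _ _)) hb) (hTG (tl_mem _ _ _))
  have hl0 : (tl 0 (-1) 0 * b * tl 0 (-1) 0) ![1, 0, 0, 0, 0, 0] = ![1, 0, 0, 0, 0, 0] := by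
    have e4 : tl 0 (-1) 0 ![1, 0, 0, 0, 0, 0] = ![1, 0, 0, 0, 0, 0] := by
      rw [tl_apply]
      decide
    rw [LinearEquiv.mul_apply, LinearEquiv.mul_apply, e4, hl, e4]
  exact exists_m2_aux hTG hG0 e1 e2 hl0

/-- the 3-group of `U2` -/
def S2 : Subgroup L where
  carrier := {g | ∃ p q r : ZMod 3, ∀ v, g v = ![v 0 + p * v 2 + q * v 4 + r * v 5, v 1, v 2, v 3, v 4, v 5]}
  mul_mem' := by
    rintro g h ⟨p, q, r, hg⟩ ⟨p', q', r', hh⟩
    refine ⟨p + p', q + q', r + r', fun v => ?_⟩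
    rw [LinearEquiv.mul_apply, hh, hg]
    funext i
    fin_cases i <;> simp
    ring
  one_mem' := ⟨0, 0, 0, fun v => by
    funext i
    fin_cases i <;> simp⟩
  inv_mem' := by
    rintro g ⟨p, q, r, hg⟩
    refine ⟨-p, -q, -r, fun v => ?_⟩
    have h1 : g ![v 0 + -p * v 2 + -q * v 4 + -r * v 5, v 1, v 2, v 3, v 4, v 5] = v := by
      rw [hg]
      funext i
      fin_cases i <;> simp
      ring
    have h2 : g⁻¹ v = g⁻¹ (g ![v 0 + -p * v 2 + -q * v 4 + -r * v 5, v 1, v 2, v 3, v 4, v 5]) := by rw [h1]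
    rw [h2]
    show (g⁻¹ * g) _ = _
    rw [inv_mul_cancel]
    rfl

theorem S2_pgroup : IsPGroup 3 S2 := by
  rintro ⟨g, p, q, r, hg⟩
  refine ⟨1, Subtype.ext (LinearEquiv.ext fun v => ?_)⟩
  show (g ^ 3 ^ 1) v = v
  have h3 := three_eq
  rw [pow_one, pow_succ, pow_two, LinearEquiv.mul_apply, LinearEquiv.mul_apply, hg, hg, hg]
  funext i
  fin_cases i <;> simp
  linear_combination (p * v 2 + q * v 4 + r * v 5) * h3

theorem S2_norm : ∀ t ∈ T, ∀ s ∈ S2, t * s * t⁻¹ ∈ S2 := by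
  rintro _ ⟨a, b, c, rfl⟩ s ⟨p, q, r, hs⟩
  refine ⟨p, q - 2 * b * p, r - b * q + b ^ 2 * p, fun v => ?_⟩
  rw [tl_inv, LinearEquiv.mul_apply, LinearEquiv.mul_apply, hs, tl_apply, tl_apply]
  funext i
  fin_cases i <;> simp [tf] <;> ring

theorem S2_inf : ∀ s ∈ S2, s ∈ T → s = 1 := by
  rintro s ⟨p, q, r, hs⟩ ⟨a, b, c, rfl⟩
  have h1 := hs ![0, 0, 0, 0, 0, 1]
  have h2 := hs ![0, 0, 0, 0, 1, 0]
  have e1 := congrFun h1 4
  have e2 := congrFun h1 3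
  have e3 := congrFun h2 3
  simp [tf] at e1 e2 e3
  rw [e1, e2, e3, tl_one]

theorem part2 {G : Subgroup L} (hG : Syl G)
    (h1 : ∃ g ∈ G, (∀ u ∈ U2, g * u * g⁻¹ ∈ U2) ∧ g * tl 0 0 1 * g⁻¹ ∉ zpowers (tl 0 0 1)) :
    ∃ j : ZMod 3, ∃ m ∈ G, ∀ v, m v = w2f j v := by
  obtain ⟨b, hb, hN, hl⟩ := exists_b2 hG.le h1
  obtain ⟨m, hm, α, β, γ, hmv⟩ := exists_m2 hG.le hb hN hl
  have h3 := three_eq
  have c1 : α + γ = 0 := by
    have hm4 : ∀ v, (m * m * (m * m)) v = ![v 0 + 2 * (α + γ) * v 2 + 0 * v 4 + 2 * (α + γ) * v 5, v 1, v 2, v 3, v 4, v 5] := by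
      intro v
      rw [LinearEquiv.mul_apply, LinearEquiv.mul_apply, LinearEquiv.mul_apply, hmv, hmv, hmv, hmv]
      funext i
      fin_cases i <;> simp
      ring
    have h4 := inf_bot hG S2_pgroup S2_norm S2_inf (m * m * (m * m)) ⟨_, _, _, hm4⟩
      (G.mul_mem (G.mul_mem hm hm) (G.mul_mem hm hm))
    have h5 := congrFun (hm4 ![0, 0, 0, 0, 0, 1]) 0
    rw [h4] at h5
    simp at h5
    rcases h5 with h5 | h5
    · exact absurd h5 (by decide)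
    · exact h5
  have c2 : β = 0 := by
    have hx : ∀ v, (tl 0 (-1) 0 * m) v = ![v 0 + α * v 2 + β * v 4 + γ * v 5, -v 3 - v 1, v 5 + 2 * v 4 + v 2, v 1,
        -v 4 - v 2, v 2] := by
      intro v
      rw [LinearEquiv.mul_apply, hmv, tl_apply]
      funext i
      fin_cases i <;> simp [tf] <;> ring
    have hX : tl 0 (-1) 0 * m ∈ G := G.mul_mem (hG.le (tl_mem _ _ _)) hm
    generalize tl 0 (-1) 0 * m = X at hx hX
    have hm4 : ∀ v, (X * (X * X)) v =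
        ![v 0 + 2 * (α + β + γ) * v 2 + 2 * (α + β + γ) * v 4 + 2 * (α + β + γ) * v 5, v 1, v 2, v 3, v 4, v 5] := by
      intro v
      rw [LinearEquiv.mul_apply, LinearEquiv.mul_apply, hx, hx, hx]
      funext i
      fin_cases i <;> simp
      · linear_combination (-(β * v 2) - β * v 4 - β * v 5) * h3
      · ring
      · ring
      · ring
      · ring
      · ring
    have h4 := inf_bot hG S2_pgroup S2_norm S2_inf (X * (X * X)) ⟨_, _, _, hm4⟩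
      (G.mul_mem hX (G.mul_mem hX hX))
    have h5 := congrFun (hm4 ![0, 0, 0, 0, 0, 1]) 0
    rw [h4] at h5
    simp at h5
    rcases h5 with h5 | h5
    · exact absurd h5 (by decide)
    · linear_combination h5 - c1
  refine ⟨α, m, hm, fun v => ?_⟩
  rw [hmv, c2]
  have h5 : γ = -α := by linear_combination c1
  rw [h5, w2f]
  funext i
  fin_cases i <;> simp
  ring

/-- **`Lin.explicit`** -/
theorem explicit {G : Subgroup L} (hG : Syl G) (_hN : ∀ g ∈ G, (∀ t ∈ T, g * t * g⁻¹ ∈ T) → ∃ t ∈ T, IsSign (t * g))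
    (h1 : ∃ g ∈ G, (∀ u ∈ U1, g * u * g⁻¹ ∈ U1) ∧ g * tl 0 0 1 * g⁻¹ ∉ zpowers (tl 0 0 1))
    (h2 : ∃ g ∈ G, (∀ u ∈ U2, g * u * g⁻¹ ∈ U2) ∧ g * tl 0 0 1 * g⁻¹ ∉ zpowers (tl 0 0 1)) :
    (∃ g ∈ G, ∀ v, g v = sf 1 (-1) 1 v) ∧ (∃ g ∈ G, ∀ v, g v = sf (-1) 1 1 v) ∧
    (∃ i : ZMod 3, ∃ g ∈ G, ∀ v, g v = df i (w1f (df (-i) v))) ∧ (∃ j : ZMod 3, ∃ g ∈ G, ∀ v, g v = w2f j v) := by
  obtain ⟨i, m, hm, hmv⟩ := part1 hG h1
  obtain ⟨j, n, hn, hnv⟩ := part2 hG h2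
  refine ⟨⟨m * m, G.mul_mem hm hm, fun v => ?_⟩, ⟨n * n, G.mul_mem hn hn, fun v => ?_⟩, ⟨i, m, hm, fun v => ?_⟩, j, n, hn, hnv⟩
  · rw [LinearEquiv.mul_apply, hmv, hmv]
    funext i
    fin_cases i <;> simp [sf]
  · rw [LinearEquiv.mul_apply, hnv, hnv]
    funext i
    fin_cases i <;> simp [sf, w2f]
    ring
  · rw [hmv]
    funext i
    fin_cases i <;> simp [df, w1f]
    ring

end Cfsg.Agent.H119.Co1
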